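import Cfsg.Agent.H316.HT.Defs
import Cfsg.Agent.H596.Degree
import Cfsg.Agent.Characters.GaloisIrr
import Cfsg.Agent.CharactersDeep.Extraspecial
import Mathlib.GroupTheory.Index

/-!
# S4933: groups with an extraspecial subgroup of small index (helper474)

`Q ≤ P` extraspecial of order `p ^ (2 k + 1)` (or more) with `Z(Q) ≤ Z(P)`, `|P : Q| < p ^ k`, `P / Z(Q)` nonabelian: `P` has
characters of degree at least `p ^ k` and nonlinear characters of degree less than `p ^ k`, so `CD p a P` fails.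

* `exists_large` : degree at least `p ^ k`;
* `exists_small` : nonlinear of degree at most `|P : Q|`;
* `not_cd` : `¬ CD p a P`.
-/

set_option autoImplicit false

namespace Cfsg.Agent.H474.HT

open Cfsg Subgroup Cfsg.Agent.Characters.Core Cfsg.Agent.H316.HT
open Cfsg.Agent.CharactersDeep.Extraspecial
open Cfsg.Agent.Blocks.Basic (charDegree_of_eq irr_one_eq_charDegree charDegree_pos)

universe u

variable {P : Type u} [Group P] [Finite P] {p : ℕ}

/-- a character of degree at least `p ^ k` -/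
theorem exists_large [hp : Fact p.Prime] {k : ℕ} (Q : Subgroup P) (hcard : p ^ (2 * k + 1) ≤ Nat.card Q)
    (hZ : Nat.card (center Q) = p) (hQ : commutator Q ≤ center Q) (hZP : (center Q).map Q.subtype ≤ center P) :
    ∃ φ : IrrCharacter P, p ^ k ≤ charDegree (φ : P → ℂ) := by
  classical
  have : Fintype Q := Fintype.ofFinite Q
  have hnt : Nontrivial (center Q) := by
    rw [← Finite.one_lt_card_iff_nontrivial, hZ]
    exact hp.out.one_lt
  obtain ⟨w, hw⟩ := exists_ne (1 : center Q)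
  have hw1 : ((w : Q) : P) ≠ 1 := fun h => hw (Subtype.ext (Subtype.ext h))
  obtain ⟨χ, hχ, hne⟩ : ∃ χ : P → ℂ, IsIrrCharacter P χ ∧ χ ((w : Q) : P) ≠ χ 1 := by
    by_contra hcon
    push Not at hcon
    exact hw1 (isConj_one_right.1 (Characters.GaloisIrr.isConj_iff_forall_irr.2 hcon).symm)
  obtain ⟨c, hc, -⟩ := exists_central_hom hχ
  -- the restriction of the central character
  let ι : center Q →* center P :=
    (Q.subtype.comp (center Q).subtype).codRestrict (center P) fun z => hZP ⟨z, z.2, rfl⟩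
  let c' : center Q →* ℂˣ := c.comp ι
  have hfc : ∀ (x : Q) (z : center Q), (χ ∘ Q.subtype) (x * z) = (χ ∘ Q.subtype) x * (c' z : ℂ) := fun x z =>
    hc x (ι z)
  have hfc1 : ∀ z : center Q, (χ ∘ Q.subtype) z = χ 1 * (c' z : ℂ) := by
    intro z
    have h1 := hfc 1 z
    rw [one_mul] at h1
    rw [h1]
    show χ ((1 : Q) : P) * _ = _
    rw [Subgroup.coe_one]
  have hcne : c' ≠ 1 := by
    intro h
    have h1 := hfc1 w
    rw [h, MonoidHom.one_apply, Units.val_one, mul_one] at h1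
    exact hne h1
  have hf := isCharacter_comp Q.subtype (isIrr_isCharacter hχ)
  have h0 : ∀ x ∉ center Q, (χ ∘ Q.subtype) x = 0 := fun x hx =>
    eq_zero_of_notMem_center hQ (isCharacter_isClassFunction hf) (fun z => (c' z : ℂ))
      (fun z hz h => hom_ne_one_of_prime_card hZ c' hcne hz (Units.ext h)) hfc hx
  have h1 := classInner_of_center (χ 1) c' h0 hfc1
  obtain ⟨n, hn⟩ := classInner_isNat hf hf
  set d := charDegree χ with hd
  have hχ1 : χ 1 = (d : ℂ) := irr_one_eq_charDegree hχ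
  rw [hn, hZ, hχ1, Complex.conj_natCast] at h1
  have hQ0 : (Nat.card Q : ℂ) ≠ 0 := card_ne_zero_complex
  have h2 : Nat.card Q * n = p * (d * d) := by
    have h3 : (Nat.card Q : ℂ) * n = p * (d * d) := by
      rw [h1, mul_inv_cancel_left₀ hQ0]
    exact_mod_cast h3
  have hd0 : 0 < d := charDegree_pos hχ
  have hn0 : 0 < n := by
    rcases Nat.eq_zero_or_pos n with h | h
    · rw [h, mul_zero] at h2
      have := Nat.mul_pos hp.out.pos (Nat.mul_pos hd0 hd0)
      omega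
    · exact h
  refine ⟨⟨χ, hχ⟩, ?_⟩
  change p ^ k ≤ d
  have h3 : p * (p ^ k * p ^ k) ≤ p * (d * d) := by
    rw [← h2]
    calc p * (p ^ k * p ^ k) = p ^ (2 * k + 1) := by ring
      _ ≤ Nat.card Q := hcard
      _ ≤ Nat.card Q * n := Nat.le_mul_of_pos_right _ hn0
  exact Nat.mul_self_le_mul_self_iff.1 (Nat.le_of_mul_le_mul_left h3 hp.out.pos)

/-- a nonlinear character of degree at most the index of a subgroup which is abelian modulo `K` -/
theorem exists_small (K : Subgroup P) [K.Normal] (B : Subgroup P) (hKB : K ≤ B)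
    (hB : ∀ x ∈ B, ∀ y ∈ B, x * y * x⁻¹ * y⁻¹ ∈ K) (hn : ∃ x y : P, x * y * x⁻¹ * y⁻¹ ∉ K) :
    ∃ φ : IrrCharacter P, charDegree (φ : P → ℂ) ≠ 1 ∧ charDegree (φ : P → ℂ) ≤ B.index := by
  have hmk : ∀ x y : P, x * y * x⁻¹ * y⁻¹ ∈ K ↔
      QuotientGroup.mk' K x * QuotientGroup.mk' K y = QuotientGroup.mk' K y * QuotientGroup.mk' K x := by
    intro x y
    have h1 : x * y * x⁻¹ * y⁻¹ ∈ K ↔ QuotientGroup.mk' K (x * y * x⁻¹ * y⁻¹) = 1 := by
      rw [← MonoidHom.mem_ker, QuotientGroup.ker_mk']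
    rw [h1, map_mul, map_mul, map_mul, map_inv, map_inv, mul_inv_eq_one, mul_inv_eq_iff_eq_mul]
  obtain ⟨ψ, hψ⟩ : ∃ ψ : IrrCharacter (P ⧸ K), charDegree (ψ : P ⧸ K → ℂ) ≠ 1 := by
    by_contra hcon
    push Not at hcon
    obtain ⟨x, y, hxy⟩ := hn
    exact hxy ((hmk x y).2 (H596.comm_of_charDegree_eq_one hcon _ _))
  have h1 : charDegree (ψ : P ⧸ K → ℂ) ≤ (B.map (QuotientGroup.mk' K)).index := by
    refine H596.charDegree_le_index ψ.2 _ ?_
    rintro _ ⟨x, hx, rfl⟩ _ ⟨y, hy, rfl⟩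
    exact (hmk x y).1 (hB x hx y hy)
  have h2 : (B.map (QuotientGroup.mk' K)).index = B.index := by
    rw [Subgroup.index_map, QuotientGroup.ker_mk', sup_eq_left.2 hKB,
      MonoidHom.range_eq_top.2 (QuotientGroup.mk'_surjective K), index_top, mul_one]
  refine ⟨⟨_, isIrr_comp (QuotientGroup.mk' K) (QuotientGroup.mk'_surjective K) ψ.2⟩, ?_, ?_⟩
  · change charDegree ((ψ : P ⧸ K → ℂ) ∘ QuotientGroup.mk' K) ≠ 1
    rwa [H596.charDegree_comp _ ψ.2]
  · change charDegree ((ψ : P ⧸ K → ℂ) ∘ QuotientGroup.mk' K) ≤ _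
    rw [H596.charDegree_comp _ ψ.2, ← h2]
    exact h1

/-- **no `a` at all** -/
theorem not_cd [hp : Fact p.Prime] {k : ℕ} (Q : Subgroup P) (hcard : p ^ (2 * k + 1) ≤ Nat.card Q)
    (hind : Q.index < p ^ k) (hZ : Nat.card (center Q) = p) (hQ : commutator Q ≤ center Q)
    (hZP : (center Q).map Q.subtype ≤ center P)
    (hn : ∃ x y : P, x * y * x⁻¹ * y⁻¹ ∉ (center Q).map Q.subtype) {a : ℕ} : ¬ CD p a P := by
  intro hcd
  obtain ⟨φ, hφ⟩ := exists_large Q hcard hZ hQ hZP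
  have hK : ((center Q).map Q.subtype).Normal := by
    constructor
    intro x hx g
    have h1 := mem_center_iff.1 (hZP hx) g
    rw [h1, mul_inv_cancel_right]
    exact hx
  obtain ⟨ψ, hψ1, hψ⟩ := exists_small ((center Q).map Q.subtype) Q
    (by rintro _ ⟨x, -, rfl⟩; exact x.2) (by
      intro x hx y hy
      refine ⟨⟨x, hx⟩ * ⟨y, hy⟩ * ⟨x, hx⟩⁻¹ * ⟨y, hy⟩⁻¹, ?_, rfl⟩
      exact hQ (commutator_mem_commutator (mem_top _) (mem_top _))) hn
  have h0 : 0 < Q.index := Nat.pos_of_ne_zero Subgroup.index_ne_zero_of_finite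
  have h1 := hcd.1 φ
  have h2 := hcd.1 ψ
  omega

omit [Finite P] in
/-- `CD` for isomorphic groups -/
theorem cd_congr {P' : Type*} [Group P'] (e : P' ≃* P) {a : ℕ} (h : CD p a P) : CD p a P' := by
  have hs : ∀ χ : IrrCharacter P', charDegree ((χ : P' → ℂ) ∘ e.symm.toMonoidHom) = charDegree (χ : P' → ℂ) :=
    fun χ => H596.charDegree_comp _ χ.2
  have ht : ∀ χ : IrrCharacter P, charDegree ((χ : P → ℂ) ∘ e.toMonoidHom) = charDegree (χ : P → ℂ) :=
    fun χ => H596.charDegree_comp _ χ.2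
  refine ⟨fun φ => ?_, ?_⟩
  · rw [← hs φ]
    exact h.1 ⟨_, isIrr_comp e.symm.toMonoidHom e.symm.surjective φ.2⟩
  · obtain ⟨φ, hφ⟩ := h.2
    refine ⟨⟨_, isIrr_comp e.toMonoidHom e.surjective φ.2⟩, ?_⟩
    rw [← hφ]
    exact ht φ

end Cfsg.Agent.H474.HT
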